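import Cfsg.Agent.SP.NegS.Gen2

/-! # S5755, row `Th`, socle `U₃(8)`: counting in the automorphism group (helper26) -/

set_option autoImplicit false
set_option linter.style.haveILetI false

namespace Cfsg.Agent.SP.NTh.U38

open Subgroup Cfsg.Agent.SP Cfsg.Agent.SP.NegS

/-- a conjugation invariant set of `p`-elements is covered by the Sylow subgroups -/
theorem syl_count {G : Type*} [Group G] [Finite G] {p : ℕ} [Fact p.Prime] (S : Sylow p G) (Z : Set G)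
    (hZ : ∀ z ∈ Z, ∃ k, z ^ p ^ k = 1) (hc : ∀ z ∈ Z, ∀ g : G, g * z * g⁻¹ ∈ Z) :
    Z.ncard ≤ Nat.card (Sylow p G) * (Z ∩ S).ncard := by
  have h1 : ∀ z : Z, ∃ P : Sylow p G, (z : G) ∈ P := by
    intro z
    obtain ⟨k, hk⟩ := hZ z z.2
    have h2 : IsPGroup p (zpowers (z : G)) := by
      rintro ⟨_, n, rfl⟩
      refine ⟨k, Subtype.ext ?_⟩
      change ((z : G) ^ n) ^ p ^ k = 1
      rw [← zpow_natCast, ← zpow_mul, mul_comm, zpow_mul, zpow_natCast, hk, one_zpow]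
    obtain ⟨P, hP⟩ := h2.exists_le_sylow
    exact ⟨P, hP (mem_zpowers _)⟩
  choose P hP using h1
  choose g hg using fun Q : Sylow p G => MulAction.exists_smul_eq G Q S
  have h3 : ∀ z : Z, g (P z) * z * (g (P z))⁻¹ ∈ Z ∩ S := by
    intro z
    refine ⟨hc _ z.2 _, ?_⟩
    have h2 : g (P z) * z * (g (P z))⁻¹ ∈ g (P z) • P z := by
      rw [Sylow.smul_def, ← SetLike.mem_coe, ← Sylow.coe_coe, Sylow.pointwise_smul_def]
      exact smul_mem_pointwise_smul _ _ _ (hP z)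
    rwa [hg] at h2
  rw [← Nat.card_coe_set_eq, ← Nat.card_coe_set_eq, ← Nat.card_prod]
  refine Nat.card_le_card_of_injective (fun z : Z => (P z, (⟨_, h3 z⟩ : (Z ∩ S : Set G)))) fun x y hxy => ?_
  have e1 : P x = P y := congrArg Prod.fst hxy
  have e2 : g (P x) * x * (g (P x))⁻¹ = g (P y) * y * (g (P y))⁻¹ := congrArg (fun t => (t.2 : G)) hxy
  rw [e1] at e2
  exact Subtype.ext (by simpa using e2)

/-- an involution in the centre of a Sylow 2-subgroup -/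
theorem exists_central {T : Type*} [Group T] [Finite T] {I : Subgroup T} {k : ℕ} (hk : 2 ^ (k + 1) ∣ Nat.card I) :
    ∃ t ∈ I, orderOf t = 2 ∧ 2 ^ (k + 1) ≤ Nat.card (I ⊓ centralizer ({t} : Set T) : Subgroup T) := by
  haveI : Fact (Nat.Prime 2) := ⟨Nat.prime_two⟩
  obtain ⟨P, hP⟩ := Sylow.exists_subgroup_card_pow_prime 2 hk
  have hPI : P.map I.subtype ≤ I := map_subtype_le _
  have hc : Nat.card (P.map I.subtype) = 2 ^ (k + 1) := by rw [card_map_of_injective (subtype_injective _), hP]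
  obtain ⟨n, hn, hn1, hC⟩ := exists_cent Nat.prime_two (IsPGroup.of_card hc) le_normalizer
    (by rw [hc]; exact dvd_pow_self 2 (Nat.succ_ne_zero k))
  obtain ⟨j, hj⟩ := exists_pow_order (x := n) (r := 2) (k := k + 1) Nat.prime_two (by
    have := pow_card_eq_one' (x := (⟨n, hn⟩ : P.map I.subtype))
    rw [hc] at this
    exact congrArg Subtype.val this) hn1
  refine ⟨n ^ j, pow_mem (hPI hn) j, hj, ?_⟩
  rw [← hc]
  exact card_le_of_le (le_inf hPI (hC.trans (cent_le_pow n j)))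

/-- The facts on `X = Aut U₃(8)`. -/
structure Dat {X : Type*} [Group X] (I : Subgroup X) (D φ u v w : X) (Gr : X → Prop) : Prop where
  nI : I.Normal
  cI : Nat.card I = 5515776
  cX : Nat.card X = 18 * 5515776
  D3 : D ^ 3 ∈ I
  D9 : D ^ 9 = 1
  D3n : D ^ 3 ≠ 1
  φ3 : φ ^ 3 = 1
  φI : φ ∉ I
  φD : φ * D * φ⁻¹ = D ^ 4
  u2 : orderOf u = 2
  v2 : orderOf v = 2
  uv : u ≠ v
  cuv : Commute u v
  uI : u ∈ I
  vI : v ∈ I
  uD : Commute u D
  vD : Commute v D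
  uφ : Commute u φ
  wI : w ∈ I
  w3 : w ^ 3 = 1
  wD : Commute w D
  wφ : Commute w φ
  wn : w ∉ zpowers (D ^ 3)
  dec3 : ∀ x : X, x ^ 27 = 1 → ∃ i ∈ I, ∃ a b : ℕ, x = i * D ^ a * φ ^ b
  cls3 : ∀ i ∈ I, ∀ b : ℕ, b = 1 ∨ b = 2 → orderOf (i * φ ^ b) = 3 →
    ∃ j ∈ I, ∃ k : ℕ, i * φ ^ b = j * D ^ k * φ ^ b * (j * D ^ k)⁻¹
  cφ : 216 ≤ Nat.card (I ⊓ centralizer ({φ} : Set X) : Subgroup X)
  inv1 : ∀ s ∈ I, ∀ t ∈ I, orderOf s = 2 → orderOf t = 2 → ∃ g ∈ I, g * s * g⁻¹ = t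
  dec2 : ∀ x : X, orderOf x = 2 → (∃ i ∈ I, ∃ a : ℕ, x = i * D ^ a) ∨ Gr x
  grI : ∀ γ, Gr γ → γ * D * γ⁻¹ * D ∈ I
  grC : ∀ γ γ', Gr γ → Gr γ' → ∃ j ∈ I, ∃ k : ℕ, γ' = j * D ^ k * γ * (j * D ^ k)⁻¹
  grZ : ∀ γ, Gr γ → ∃ C : Subgroup X, 504 ≤ Nat.card C ∧ ∀ g ∈ C, g * γ = γ * g ∧ ∃ j ∈ I, ∃ k : ℕ, g = j * D ^ k

variable {X : Type*} [Group X] {I A : Subgroup X} {D φ u v w : X} {Gr : X → Prop}

theorem Dat.fin (h : Dat I D φ u v w Gr) : Finite X := Nat.finite_of_card_ne_zero (by rw [h.cX]; norm_num)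

theorem Dat.conj_pow (h : Dat I D φ u v w Gr) (a b : ℕ) : φ ^ b * D ^ a = D ^ (4 ^ b * a) * φ ^ b := by
  have h1 : ∀ a : ℕ, φ * D ^ a = D ^ (4 * a) * φ := fun a => by
    rw [pow_mul, ← h.φD, _root_.conj_pow, inv_mul_cancel_right]
  induction b with
  | zero => simp
  | succ b ih => rw [pow_succ', mul_assoc, ih, ← mul_assoc, h1, mul_assoc, ← mul_assoc 4, ← pow_succ']

theorem Dat.cube (h : Dat I D φ u v w Gr) (a b : ℕ) : (D ^ a * φ ^ b) ^ 3 = (D ^ 3) ^ a := by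
  have h1 : (D ^ a * φ ^ b) ^ 3 = D ^ a * (φ ^ b * D ^ a) * (φ ^ b * D ^ a) * φ ^ b := by
    simp only [pow_succ, pow_zero, one_mul, mul_assoc]
  have h2 : (φ ^ b * D ^ a) * (φ ^ b * D ^ a) * φ ^ b = D ^ (4 ^ b * a + 4 ^ b * (4 ^ b * a)) * (φ ^ 3) ^ b := by
    rw [h.conj_pow, mul_assoc (D ^ _), ← mul_assoc (φ ^ b), h.conj_pow, ← pow_mul φ, mul_comm 3 b, pow_mul φ, pow_add]
    simp only [pow_succ, pow_zero, one_mul, mul_assoc]
  rw [h1, mul_assoc, mul_assoc, ← mul_assoc (φ ^ b * D ^ a), h2, h.φ3, one_pow, mul_one, ← pow_add, ← pow_mul,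
    pow_eq_pow_mod _ h.D9, pow_eq_pow_mod (3 * a) h.D9]
  congr 1
  have h3 : (1 + 4 ^ b + 4 ^ b * 4 ^ b) % 9 = 3 := by
    induction b with
    | zero => rfl
    | succ b ih =>
      have h4 : 4 ^ b % 3 = 1 := by rw [Nat.pow_mod]; simp
      obtain ⟨m, hm⟩ : ∃ m, 4 ^ b = 3 * m + 1 := ⟨4 ^ b / 3, by omega⟩
      rw [pow_succ, hm]
      have : 1 + (3 * m + 1) * 4 + (3 * m + 1) * 4 * ((3 * m + 1) * 4) = 3 + 9 * (2 + 12 * m + 16 * m ^ 2) := by ring
      rw [this, Nat.add_mul_mod_self_left]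
  have h4 : a + (4 ^ b * a + 4 ^ b * (4 ^ b * a)) = (1 + 4 ^ b + 4 ^ b * 4 ^ b) * a := by ring
  rw [h4, Nat.mul_mod, h3, Nat.mul_mod 3 a]

theorem Dat.oD3 (h : Dat I D φ u v w Gr) : orderOf (D ^ 3) = 3 :=
  @orderOf_eq_prime _ _ _ _ ⟨Nat.prime_three⟩ (by rw [← pow_mul]; exact h.D9) h.D3n

theorem Dat.order9 (h : Dat I D φ u v w Gr) {a : ℕ} (ha : ¬ 3 ∣ a) (b : ℕ) : orderOf (D ^ a * φ ^ b) = 9 := by
  haveI : Fact (Nat.Prime 3) := ⟨Nat.prime_three⟩
  refine orderOf_eq_prime_pow (p := 3) (n := 1) ?_ ?_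
  · rw [pow_one, h.cube, ← orderOf_dvd_iff_pow_eq_one, h.oD3]
    exact ha
  · rw [show 3 ^ (1 + 1) = 3 * 3 from rfl, pow_mul, h.cube, ← pow_mul, mul_comm a, pow_mul, ← pow_mul D 3 3,
      h.D9, one_pow]

theorem Dat.pow_mem (h : Dat I D φ u v w Gr) {a : ℕ} (ha : 3 ∣ a) : D ^ a ∈ I := by
  obtain ⟨c, rfl⟩ := ha
  rw [pow_mul]
  exact I.pow_mem h.D3 c

/-- the hypothesis on `A` -/
structure Hyp (I A : Subgroup X) (D φ : X) : Prop where
  le : I ≤ A
  no : ∀ a b : ℕ, ¬ 3 ∣ a → D ^ a * φ ^ b ∉ A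

theorem Dat.mem_of_comm (h : Dat I D φ u v w Gr) (hA : Hyp I A D φ) {γ j : X} (hγ : Gr γ) (hj : j ∈ I) {k : ℕ}
    (hm : j * D ^ k * γ * (j * D ^ k)⁻¹ * γ⁻¹ ∈ A) : j * D ^ k ∈ I := by
  haveI := h.nI
  refine mul_mem hj (h.pow_mem ?_)
  by_contra hk
  have hk2 : ¬ 3 ∣ 2 * k := fun e => hk ((Nat.Coprime.dvd_mul_left (by norm_num)).1 e)
  apply hA.no (2 * k) 0 hk2
  rw [pow_zero, mul_one]
  have h1 : (QuotientGroup.mk (γ * D * γ⁻¹ * D) : X ⧸ I) = 1 := (QuotientGroup.eq_one_iff _).2 (h.grI γ hγ)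
  have h2 : (QuotientGroup.mk j : X ⧸ I) = 1 := (QuotientGroup.eq_one_iff _).2 hj
  have h3 : (QuotientGroup.mk (j * D ^ k * γ * (j * D ^ k)⁻¹ * γ⁻¹) : X ⧸ I) = QuotientGroup.mk (D ^ (2 * k)) := by
    simp only [QuotientGroup.mk_mul, QuotientGroup.mk_inv, QuotientGroup.mk_pow, h2, one_mul] at h1 ⊢
    generalize (QuotientGroup.mk γ : X ⧸ I) = c at h1 ⊢
    generalize (QuotientGroup.mk D : X ⧸ I) = d at h1 ⊢
    have h4 : c * d⁻¹ * c⁻¹ = d := by
      rw [← mul_inv_eq_one, ← inv_eq_one, ← h1]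
      have h5 : c * d * c⁻¹ = d⁻¹ := eq_inv_of_mul_eq_one_left h1
      rw [h5]
      calc (c * d⁻¹ * c⁻¹ * d⁻¹)⁻¹ = d * (c * d * c⁻¹) := by group
        _ = d⁻¹ * d := by rw [h5]; group
    calc d ^ k * c * (d ^ k)⁻¹ * c⁻¹ = d ^ k * (c * d⁻¹ * c⁻¹) ^ k := by rw [_root_.conj_pow, inv_pow]; group
      _ = d ^ (2 * k) := by rw [h4, two_mul, pow_add]
  have h6 := QuotientGroup.eq.1 h3
  exact (A.mul_mem_cancel_left (inv_mem hm)).1 (hA.le h6)

/-- the involutions -/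
theorem Dat.count2 (h : Dat I D φ u v w Gr) (hA : Hyp I A D φ) : {x | x ∈ A ∧ orderOf x = 2}.ncard ≤ 21717 := by
  haveI := h.fin
  obtain ⟨t, htI, ht, hc⟩ := exists_central (I := I) (k := 8) (by rw [h.cI]; norm_num)
  have c1 : (cls I t).ncard ≤ 10773 := by
    have := ncard_cls I t
    rw [h.cI] at this
    have h2 := Nat.mul_le_mul_left (cls I t).ncard hc
    omega
  have hin : ∀ x ∈ A, orderOf x = 2 → x ∈ cls I t ∨ Gr x := by
    intro x hx ho
    rcases h.dec2 x ho with ⟨i, hi, a, rfl⟩ | hg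
    · left
      have h3 : 3 ∣ a := by
        by_contra ha
        apply hA.no a 0 ha
        rw [pow_zero, mul_one]
        exact (A.mul_mem_cancel_left (hA.le hi)).1 hx
      exact h.inv1 t htI _ (mul_mem hi (h.pow_mem h3)) ht ho
    · exact Or.inr hg
  by_cases hg : ∃ γ ∈ A, Gr γ
  · obtain ⟨γ, hγA, hγ⟩ := hg
    have c2 : (cls I γ).ncard ≤ 10944 := by
      obtain ⟨C, hC, hC'⟩ := h.grZ γ hγ
      have h1 : C ≤ I ⊓ centralizer ({γ} : Set X) := by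
        intro g hg
        obtain ⟨h1, j, hj, k, rfl⟩ := hC' g hg
        refine ⟨h.mem_of_comm hA hγ hj ?_, mem_centralizer_singleton_iff.2 h1⟩
        rw [h1, mul_inv_cancel_right, mul_inv_cancel]
        exact one_mem _
      have := ncard_cls I γ
      rw [h.cI] at this
      have h2 := Nat.mul_le_mul_left (cls I γ).ncard (hC.trans (card_le_of_le h1))
      omega
    refine le_trans (Set.ncard_le_ncard (t := cls I t ∪ cls I γ) ?_) ((Set.ncard_union_le _ _).trans (by omega))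
    rintro x ⟨hx, ho⟩
    refine (hin x hx ho).imp id fun hg => ?_
    obtain ⟨j, hj, k, e⟩ := h.grC γ x hγ hg
    exact ⟨_, h.mem_of_comm hA hγ hj (by rw [← e]; exact mul_mem hx (inv_mem hγA)), e.symm⟩
  · refine le_trans (Set.ncard_le_ncard (t := cls I t) ?_) (by omega)
    rintro x ⟨hx, ho⟩
    exact (hin x hx ho).resolve_right fun hx' => hg ⟨x, hx, hx'⟩

/-- the outer 3-elements -/
theorem Dat.outer (h : Dat I D φ u v w Gr) (hA : Hyp I A D φ) {x : X} (hx : x ∈ A) (hxI : x ∉ I) (ho : x ^ 27 = 1) :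
    ∃ i ∈ I, ∃ b : ℕ, (b = 1 ∨ b = 2) ∧ x = i * φ ^ b := by
  obtain ⟨i, hi, a, b, rfl⟩ := h.dec3 x ho
  have h3 : 3 ∣ a := by
    by_contra ha
    apply hA.no a b ha
    rw [mul_assoc] at hx
    exact (A.mul_mem_cancel_left (hA.le hi)).1 hx
  have hi' := mul_mem hi (h.pow_mem h3)
  refine ⟨_, hi', b % 3, ?_, by rw [← pow_eq_pow_mod _ h.φ3]⟩
  have h0 : b % 3 ≠ 0 := fun e => hxI (by rw [pow_eq_pow_mod b h.φ3, e, pow_zero, mul_one]; exact hi')
  omega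

theorem Dat.φ_mem (h : Dat I D φ u v w Gr) (hA : Hyp I A D φ) {x : X} (hx : x ∈ A) (hxI : x ∉ I) (ho : x ^ 27 = 1) :
    φ ∈ A := by
  obtain ⟨i, hi, b, hb, rfl⟩ := h.outer hA hx hxI ho
  have h1 : φ ^ b ∈ A := (A.mul_mem_cancel_left (hA.le hi)).1 hx
  rcases hb with rfl | rfl
  · rwa [pow_one] at h1
  · have h2 : φ = (φ ^ 2) ^ 2 := by rw [← pow_mul, pow_succ, h.φ3, one_mul]
    rw [h2]
    exact A.pow_mem h1 2

theorem Dat.conjD (h : Dat I D φ u v w Gr) (k : ℕ) : D ^ k * φ * (D ^ k)⁻¹ = (D ^ 3) ^ (2 * k) * φ := by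
  have h1 := h.conj_pow (8 * k) 1
  have h2 : (D ^ k)⁻¹ = D ^ (8 * k) := by
    rw [inv_eq_iff_mul_eq_one, ← pow_add, show k + 8 * k = 9 * k by ring, pow_mul, h.D9, one_pow]
  rw [pow_one] at h1
  rw [h2, mul_assoc, h1, ← mul_assoc, ← pow_add, ← pow_mul,
    show k + 4 ^ 1 * (8 * k) = 3 * (2 * k) + 9 * (3 * k) by ring, pow_add, pow_mul D 9, h.D9, one_pow, mul_one]

theorem Dat.Dφ (h : Dat I D φ u v w Gr) : Commute (D ^ 3) φ := by
  have := h.conj_pow 3 1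
  rw [pow_one, show 4 ^ 1 * 3 = 3 + 9 by norm_num, pow_add, h.D9, mul_one] at this
  exact this.symm

/-- the classes of the outer elements of order 3 -/
theorem Dat.mem_cls (h : Dat I D φ u v w Gr) (hA : Hyp I A D φ) {x : X} (hx : x ∈ A) (hxI : x ∉ I)
    (ho : orderOf x = 3) : ∃ c < 3, x ∈ cls I ((D ^ 3) ^ c * φ) ∨ x ∈ cls I ((D ^ 3) ^ c * φ)⁻¹ := by
  obtain ⟨i, hi, b, hb, rfl⟩ := h.outer hA hx hxI (orderOf_dvd_iff_pow_eq_one.1 (by rw [ho]; norm_num))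
  obtain ⟨j, hj, k, e⟩ := h.cls3 i hi b hb ho
  have h9 : (D ^ 3) ^ 3 = 1 := by rw [← pow_mul]; exact h.D9
  refine ⟨2 * k % 3, Nat.mod_lt _ (by norm_num), ?_⟩
  rw [← pow_eq_pow_mod _ h9, ← h.conjD, e]
  rcases hb with rfl | rfl
  · exact Or.inl ⟨j, hj, by group⟩
  · have h2 : φ ^ 2 = φ⁻¹ := by rw [eq_inv_iff_mul_eq_one, ← pow_succ, h.φ3]
    rw [h2]
    exact Or.inr ⟨j, hj, by group⟩

theorem Dat.card_cls (h : Dat I D φ u v w Gr) (c : ℕ) :
    (cls I ((D ^ 3) ^ c * φ)).ncard ≤ 25536 ∧ (cls I ((D ^ 3) ^ c * φ)⁻¹).ncard ≤ 25536 := by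
  haveI := h.fin
  have h9 : (D ^ 3) ^ 3 = 1 := by rw [← pow_mul]; exact h.D9
  have e : (D ^ 3) ^ c * φ = D ^ (2 * c) * φ * (D ^ (2 * c))⁻¹ := by
    rw [h.conjD, show 2 * (2 * c) = c + 3 * c by ring, pow_add, pow_mul (D ^ 3) 3, h9, one_pow, mul_one]
  have key : ∀ y : X, (∀ g : X, g * φ = φ * g → D ^ (2 * c) * g * (D ^ (2 * c))⁻¹ * y =
      y * (D ^ (2 * c) * g * (D ^ (2 * c))⁻¹)) → (cls I y).ncard ≤ 25536 := by
    intro y hy
    have h1 : (I ⊓ centralizer ({φ} : Set X)).map (MulAut.conj (D ^ (2 * c))).toMonoidHom ≤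
        I ⊓ centralizer ({y} : Set X) := by
      rintro _ ⟨g, hg, rfl⟩
      exact ⟨h.nI.conj_mem _ hg.1 _, mem_centralizer_singleton_iff.2 (hy g (mem_centralizer_singleton_iff.1 hg.2))⟩
    have h2 := card_le_of_le h1
    rw [card_map_conj] at h2
    have := ncard_cls I y
    rw [h.cI] at this
    have h3 := Nat.mul_le_mul_left (cls I y).ncard (h.cφ.trans h2)
    omega
  have key2 : ∀ g : X, g * φ = φ * g → Commute (D ^ (2 * c) * g * (D ^ (2 * c))⁻¹) ((D ^ 3) ^ c * φ) := by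
    intro g hg
    rw [e]
    exact (show Commute g φ from hg).conj _
  exact ⟨key _ fun g hg => (key2 g hg).eq, key _ fun g hg => (key2 g hg).inv_right.eq⟩

/-- the outer elements of order 9 and 27 -/
theorem Dat.count9 (h : Dat I D φ u v w Gr) (hA : Hyp I A D φ) :
    {x | x ∈ A ∧ x ∉ I ∧ (orderOf x = 9 ∨ orderOf x = 27)}.ncard ≤ 4902912 := by
  haveI := h.fin
  haveI := h.nI
  haveI : Fact (Nat.Prime 3) := ⟨Nat.prime_three⟩
  have oφ : orderOf φ = 3 := orderOf_eq_prime h.φ3 fun e => h.φI (e ▸ one_mem I)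
  obtain ⟨H, hH⟩ : ∃ H : Subgroup X, H = I ⊔ zpowers φ := ⟨_, rfl⟩
  have hIH : I ≤ H := hH ▸ le_sup_left
  have hφH : φ ∈ H := hH ▸ mem_sup_right (mem_zpowers φ)
  have hrel : I.relIndex H = 3 := by
    rw [hH, relIndex_sup_left, ← oφ, ← Nat.card_zpowers, ← card_inf_mul_relIndex (zpowers φ) I]
    have h1 : zpowers φ ⊓ I = ⊥ := by
      haveI : Fact (Nat.card (zpowers φ)).Prime := ⟨by rw [Nat.card_zpowers, oφ]; exact Nat.prime_three⟩
      rcases (I.subgroupOf (zpowers φ)).eq_bot_or_eq_top_of_prime_card with e | e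
      · rw [inf_comm]; exact disjoint_iff.1 (subgroupOf_eq_bot.1 e)
      · exact absurd (subgroupOf_eq_top.1 e (mem_zpowers φ)) h.φI
    rw [h1, card_bot, one_mul]
  have hcH : Nat.card H = 16547328 := by
    rw [← card_mul_relIndex hIH, hrel, h.cI]
  -- the elementary abelian subgroup
  have h9 : (D ^ 3) ^ 3 = 1 := by rw [← pow_mul]; exact h.D9
  obtain ⟨E, hE⟩ : ∃ E : Subgroup X, E = closure {D ^ 3, w, φ} := ⟨_, rfl⟩
  have hEc : ∀ x ∈ ({D ^ 3, w, φ} : Set X), ∀ y ∈ ({D ^ 3, w, φ} : Set X), x * y = y * x := by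
    have a1 := h.Dφ.eq
    have a2 := h.wφ.eq
    have a3 := (h.wD.pow_right 3).eq
    intro x hx y hy
    simp only [Set.mem_insert_iff, Set.mem_singleton_iff] at hx hy
    rcases hx with rfl | rfl | rfl <;> rcases hy with rfl | rfl | rfl <;>
      first | rfl | assumption | (symm; assumption)
  have hE3 : ∀ x ∈ E, x ^ 3 = 1 := by
    intro x hx
    rw [hE] at hx
    letI := closureCommGroupOfComm hEc
    have key : ∀ y : closure ({D ^ 3, w, φ} : Set X), y ^ 3 = 1 := by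
      rintro ⟨y, hy⟩
      induction hy using closure_induction with
      | mem y hy =>
        simp only [Set.mem_insert_iff, Set.mem_singleton_iff] at hy
        apply Subtype.ext
        rcases hy with rfl | rfl | rfl
        exacts [h9, h.w3, h.φ3]
      | one => exact one_pow _
      | mul y z hy hz ihy ihz =>
        change ((⟨y, hy⟩ : closure ({D ^ 3, w, φ} : Set X)) * ⟨z, hz⟩) ^ 3 = 1
        rw [mul_pow, ihy, ihz, one_mul]
      | inv y hy ih =>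
        change ((⟨y, hy⟩ : closure ({D ^ 3, w, φ} : Set X))⁻¹) ^ 3 = 1
        rw [inv_pow, ih, inv_one]
    exact congrArg Subtype.val (key ⟨x, hx⟩)
  have hDE : D ^ 3 ∈ E := hE ▸ subset_closure (by simp)
  have hwE : w ∈ E := hE ▸ subset_closure (by simp)
  have hφE : φ ∈ E := hE ▸ subset_closure (by simp)
  have hEH : E ≤ H := by
    rw [hE, closure_le]
    intro x hx
    simp only [Set.mem_insert_iff, Set.mem_singleton_iff] at hx
    rcases hx with rfl | rfl | rfl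
    exacts [hIH h.D3, hIH h.wI, hφH]
  have hE9 : 9 ≤ Nat.card (E ⊓ I : Subgroup X) := by
    have ow : orderOf w = 3 := orderOf_eq_prime h.w3 fun e => h.wn (e ▸ one_mem _)
    have h1 := card_mul_dvd (S := zpowers (D ^ 3)) (S' := zpowers w) (N := E ⊓ I)
      (zpowers_le.2 ⟨hDE, h.D3⟩) (zpowers_le.2 ⟨hwE, h.wI⟩) (by
        haveI : Fact (Nat.card (zpowers w)).Prime := ⟨by rw [Nat.card_zpowers, ow]; exact Nat.prime_three⟩
        rcases ((zpowers (D ^ 3)).subgroupOf (zpowers w)).eq_bot_or_eq_top_of_prime_card with e | e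
        · exact disjoint_iff.1 (subgroupOf_eq_bot.1 e)
        · exact absurd (subgroupOf_eq_top.1 e (mem_zpowers w)) h.wn) (by
        rintro _ ⟨m, rfl⟩ _ ⟨n, rfl⟩
        exact (h.wD.pow_right 3).symm.zpow_zpow m n)
    rw [Nat.card_zpowers, Nat.card_zpowers, h.oD3, ow] at h1
    exact Nat.le_of_dvd Nat.card_pos h1
  -- the Sylow subgroup
  obtain ⟨S, hS⟩ := (show IsPGroup 3 (E.subgroupOf H) from fun x =>
    ⟨1, Subtype.ext (Subtype.ext (by rw [pow_one]; exact hE3 _ x.2))⟩).exists_le_sylow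
  have hcS : Nat.card S = 243 := by
    rw [Sylow.card_eq_multiplicity, hcH]
    have h1 : (16547328 : ℕ) = 3 ^ 5 * 68096 := by norm_num
    rw [h1, Nat.factorization_mul (by norm_num) (by norm_num), Finsupp.add_apply,
      Nat.Prime.factorization_pow (by norm_num), Finsupp.single_eq_same,
      Nat.factorization_eq_zero_of_not_dvd (by norm_num)]
    norm_num
  have hn : Nat.card (Sylow 3 H) ≤ 34048 := by
    have h1 := S.card_dvd_index
    have h2 := (S : Subgroup H).card_mul_index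
    rw [hcS, hcH] at h2
    have h3 : (S : Subgroup H).index = 68096 := by omega
    have h4 := card_sylow_modEq_one 3 H
    rw [h3] at h1
    obtain ⟨m, hm⟩ := h1
    have h5 : m ≠ 1 := by
      rintro rfl
      rw [mul_one] at hm
      rw [← hm] at h4
      exact absurd h4 (by decide)
    have h6 : m ≠ 0 := by rintro rfl; omega
    have h7 : Nat.card (Sylow 3 H) * 2 ≤ Nat.card (Sylow 3 H) * m := Nat.mul_le_mul_left _ (by omega)
    omega
  obtain ⟨Z, hZ⟩ : ∃ Z : Set H, Z = {x : H | (x : X) ∉ I ∧ (orderOf (x : X) = 9 ∨ orderOf (x : X) = 27)} := ⟨_, rfl⟩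
  have hZ1 := syl_count S Z (fun z hz => ⟨3, Subtype.ext (by
      rw [hZ] at hz
      refine orderOf_dvd_iff_pow_eq_one.1 (?_ : orderOf (z : X) ∣ 3 ^ 3)
      rcases hz.2 with e | e <;> rw [e] <;> norm_num)⟩) (fun z hz g => by
      rw [hZ] at hz ⊢
      refine ⟨fun hm => hz.1 ?_, ?_⟩
      · have := h.nI.conj_mem _ hm (g : X)⁻¹
        simpa [mul_assoc] using this
      · have e : orderOf ((g * z * g⁻¹ : H) : X) = orderOf (z : X) := by
          have := orderOf_conj' (g : X)⁻¹ (z : X)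
          rwa [inv_inv] at this
        rw [e]; exact hz.2)
  -- the part inside the Sylow subgroup
  obtain ⟨P, hP⟩ : ∃ P : Subgroup X, P = (S : Subgroup H).map H.subtype := ⟨_, rfl⟩
  have hcP : Nat.card P = 243 := by rw [hP, card_map_of_injective (subtype_injective _), hcS]
  have hEP : E ≤ P := fun x hx => hP ▸ ⟨⟨x, hEH hx⟩, hS hx, rfl⟩
  have hPI : 81 ≤ Nat.card (P ⊓ I : Subgroup X) := by
    have h1 := card_inf_mul_relIndex P I
    have h2 : I.relIndex P ≤ I.relIndex H :=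
      relIndex_le_of_le_right (hP ▸ map_subtype_le _) (by rw [hrel]; norm_num)
    rw [hrel] at h2
    have h3 := Nat.mul_le_mul_left (Nat.card (P ⊓ I : Subgroup X)) h2
    omega
  have hφ2 : φ ^ 2 ∉ I := fun hm => h.φI (by
    have h2 : φ = (φ ^ 2) ^ 2 := by rw [← pow_mul, pow_succ, h.φ3, one_mul]
    rw [h2]; exact I.pow_mem hm 2)
  have hY : ∀ b : ℕ, 9 ≤ ((fun x => x * φ ^ b) '' ((E ⊓ I : Subgroup X) : Set X)).ncard := fun b => by
    rw [Set.ncard_image_of_injective _ (mul_left_injective _), ← Nat.card_coe_set_eq]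
    exact hE9
  have hZ2 : (Z ∩ S).ncard ≤ 144 := by
    have h1 := ncard_add_le (A := P) (B := P ⊓ I) inf_le_left
      (Y := (Subtype.val '' (Z ∩ S)) ∪ ((fun x => x * φ ^ 1) '' ((E ⊓ I : Subgroup X) : Set X) ∪
        (fun x => x * φ ^ 2) '' ((E ⊓ I : Subgroup X) : Set X))) (by
      rintro x (⟨z, hz, rfl⟩ | ⟨y, hy, rfl⟩ | ⟨y, hy, rfl⟩)
      · refine ⟨hP ▸ ⟨z, hz.2, rfl⟩, fun hm => ?_⟩
        rw [hZ] at hz
        exact hz.1.1 hm.2
      · exact ⟨hEP (mul_mem hy.1 (E.pow_mem hφE _)), fun hm => h.φI (by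
          have := (I.mul_mem_cancel_left hy.2).1 hm.2
          rwa [pow_one] at this)⟩
      · exact ⟨hEP (mul_mem hy.1 (E.pow_mem hφE _)), fun hm => hφ2 ((I.mul_mem_cancel_left hy.2).1 hm.2)⟩)
    rw [Set.ncard_union_eq, Set.ncard_union_eq, Set.ncard_image_of_injective _ Subtype.val_injective, hcP] at h1
    · have := hY 1
      have := hY 2
      omega
    · rw [Set.disjoint_left]
      rintro _ ⟨y, hy, rfl⟩ ⟨z, hz, e⟩
      apply h.φI
      have e' : φ = z⁻¹ * y := by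
        have e2 : z * φ ^ 2 = y * φ ^ 1 := e
        rw [pow_one, pow_two, ← mul_assoc] at e2
        rw [← mul_right_cancel e2, inv_mul_cancel_left]
      rw [e']
      exact mul_mem (inv_mem hz.2) hy.2
    · rw [Set.disjoint_left]
      rintro _ ⟨z, hz, rfl⟩ hm
      have h3 : (z : X) ^ 3 = 1 := by
        apply hE3
        rcases hm with ⟨y, hy, e⟩ | ⟨y, hy, e⟩ <;> rw [← e] <;> exact mul_mem hy.1 (E.pow_mem hφE _)
      have h4 := orderOf_dvd_of_pow_eq_one h3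
      rw [hZ] at hz
      rcases hz.1.2 with e | e <;> rw [e] at h4 <;> norm_num at h4
  have hsub : {x | x ∈ A ∧ x ∉ I ∧ (orderOf x = 9 ∨ orderOf x = 27)} ⊆ Subtype.val '' Z := by
    rintro x ⟨hx, hxI, ho⟩
    obtain ⟨i, hi, b, -, e⟩ := h.outer hA hx hxI (orderOf_dvd_iff_pow_eq_one.1 (by
      rcases ho with e | e <;> rw [e] <;> norm_num))
    refine ⟨⟨x, e ▸ mul_mem (hIH hi) (H.pow_mem hφH b)⟩, ?_, rfl⟩
    rw [hZ]
    exact ⟨hxI, ho⟩
  have h5 := Set.ncard_le_ncard hsub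
  rw [Set.ncard_image_of_injective _ Subtype.val_injective] at h5
  exact h5.trans (hZ1.trans (Nat.mul_le_mul hn hZ2))

end Cfsg.Agent.SP.NTh.U38
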