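import Cfsg.Agent.SP.NTh.U38.Abs
import Cfsg.Agent.H202.PsuCount
import Cfsg.Agent.H91.PguCent
import Cfsg.Agent.H245.RankOneOrth
import Cfsg.Agent.ClassicalGeometry.PSL2Basic
import Cfsg.Agent.S0277
import Cfsg.Agent.S0815
import Cfsg.Agent.S2705
import Cfsg.Agent.S2706

/-! # S5755, row `Th`, socle `U₃(8)`: the automorphism group of `U₃(8)` (helper26) -/

set_option autoImplicit false
set_option linter.style.haveILetI false
set_option linter.unusedSectionVars false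

namespace Cfsg.Agent.SP.NTh.U38

open Cfsg Matrix Subgroup Cfsg.Agent.LieClassical.HermBasic
  Cfsg.Agent.ClassicalGeometry.PSUAutCount Cfsg.Agent.Schreier.PSU Cfsg.Agent.H202.Split Cfsg.Agent.H202.Psu
  Cfsg.Agent.H202.PsuCent Cfsg.Agent.H202.PsuCount Cfsg.Agent.ClassicalGeometry.GUBasic

theorem card_pgu_ge {F : Type*} [Field F] [Fintype F] {n q : ℕ} (hn : 1 ≤ n) (hF : Fintype.card F = q ^ 2) :
    Nat.card (GU n F q) ≤ Nat.card (PGU n F q) * (q + 1) := by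
  rw [card_eq_card_quotient_mul_card_subgroup ((Geo.scalars (Fin n) F).subgroupOf (GU n F q))]
  refine Nat.mul_le_mul_left _ ?_
  rw [← card_rootsOfUnity_eq hF]
  have key : ∀ A : (Geo.scalars (Fin n) F).subgroupOf (GU n F q), ∃ u : rootsOfUnity (q + 1) F,
      (((A : GU n F q) : GL (Fin n) F) : Matrix (Fin n) (Fin n) F) = diagonal fun _ => ((u : Fˣ) : F) := by
    intro A
    have hA : (A : GU n F q) ∈ center (GU n F q) := by
      obtain ⟨c, hc⟩ := (Geo.mem_scalars_iff _).1 (mem_subgroupOf.1 A.2)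
      rw [mem_center_iff]
      intro B
      apply Subtype.ext
      apply Units.ext
      rw [Subgroup.coe_mul, Subgroup.coe_mul, Units.val_mul, Units.val_mul, hc]
      simp
    obtain ⟨c, hc, hA'⟩ := (mem_center_GU_iff hF hn _).1 hA
    have hc0 : c ≠ 0 := by
      rintro rfl
      rw [zero_pow (by omega)] at hc
      exact zero_ne_one hc
    refine ⟨⟨Units.mk0 c hc0, ?_⟩, ?_⟩
    · rw [mem_rootsOfUnity]
      apply Units.ext
      rw [Units.val_pow_eq_pow_val, Units.val_mk0, Units.val_one]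
      exact hc
    · rw [hA']
      exact coe_guDiag q _ _
  choose g hg using key
  refine Nat.card_le_card_of_injective g fun A B hAB => ?_
  apply Subtype.ext
  apply Subtype.ext
  apply Units.ext
  rw [hg A, hg B, hAB]

variable {F : Type} [Field F] [Fintype F] [CharP F 2] (hF : Fintype.card F = 8 ^ 2) {ζ : F}

/-- the Frobenius map -/
noncomputable def fr (F : Type) [Field F] [Fintype F] [CharP F 2] : F ≃+* F := frobeniusEquiv F 2

theorem fr_pow (j : ℕ) (x : F) : (fr F ^ j) x = x ^ 2 ^ j := by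
  induction j generalizing x with
  | zero => rw [pow_zero, pow_zero, pow_one]; rfl
  | succ j ih =>
    rw [pow_succ, pow_succ', pow_mul]
    exact ih (x ^ 2)

include hF in
theorem order_fr (hζ : IsPrimitiveRoot ζ 9) : orderOf (fr F) = 6 := by
  have key : ∀ j, fr F ^ j = 1 → 2 ^ j % 9 = 1 := by
    intro j hj
    have h1 := fr_pow j ζ
    rw [hj] at h1
    have h2 : ζ ^ 1 = ζ ^ (2 ^ j % 9) := by
      rw [← pow_eq_pow_mod _ hζ.pow_eq_one, ← h1, pow_one]; rfl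
    exact (hζ.pow_inj (by norm_num) (Nat.mod_lt _ (by norm_num)) h2).symm
  refine orderOf_eq_of_pow_and_pow_div_prime (by norm_num) ?_ ?_
  · ext x
    rw [fr_pow]
    have := FiniteField.pow_card x
    rw [hF] at this
    exact this
  · intro p hp hd h
    have h1 := Nat.le_of_dvd (by norm_num) hd
    have h2 := key _ h
    have h3 := hp.two_le
    interval_cases p <;> simp_all

include hF in
theorem exists_fr (hζ : IsPrimitiveRoot ζ 9) (σ : F ≃+* F) : ∃ j : ℕ, σ = fr F ^ j := by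
  haveI : Fact (Nat.Prime 2) := ⟨Nat.prime_two⟩
  have h1 : Nat.card (F ≃+* F) = 6 := Lib.FieldAutCard.card_ringAut (p := 2) (by norm_num) (by rw [hF]; norm_num)
  haveI : Finite (F ≃+* F) := Nat.finite_of_card_ne_zero (by rw [h1]; norm_num)
  have h2 : zpowers (fr F) = ⊤ := eq_top_of_card_eq _ (by rw [Nat.card_zpowers, order_fr hF hζ, h1])
  obtain ⟨j, hj⟩ := mem_powers_iff_mem_zpowers.2 (h2 ▸ mem_top σ)
  exact ⟨j, hj.symm⟩

/-- diagonal elements -/
def dg (hζ : IsPrimitiveRoot ζ 9) (a b : ℕ) : GU 3 F 8 :=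
  guDiag 8 ![ζ ^ a, ζ ^ b, 1] fun i => by
    have h : ∀ c : ℕ, (ζ ^ c) ^ (8 + 1) = 1 := fun c => by
      rw [← pow_mul, mul_comm, pow_mul, hζ.pow_eq_one, one_pow]
    fin_cases i
    · exact h a
    · exact h b
    · exact one_pow _

theorem gm_dg (hζ : IsPrimitiveRoot ζ 9) (a b : ℕ) : gm (dg hζ a b) = diagonal ![ζ ^ a, ζ ^ b, 1] := rfl

theorem dg_mul (hζ : IsPrimitiveRoot ζ 9) (a b c d : ℕ) : dg hζ a b * dg hζ c d = dg hζ (a + c) (b + d) := by
  apply gm_inj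
  rw [gm_mul, gm_dg, gm_dg, gm_dg, diagonal_mul_diagonal]
  congr 1
  ext i
  fin_cases i <;> simp [pow_add]

theorem dg_zero (hζ : IsPrimitiveRoot ζ 9) : dg hζ 0 0 = 1 := by
  apply gm_inj
  rw [gm_dg, gm_one, ← diagonal_one]
  congr 1
  ext i
  fin_cases i <;> simp

theorem dg_pow (hζ : IsPrimitiveRoot ζ 9) (a b k : ℕ) : dg hζ a b ^ k = dg hζ (a * k) (b * k) := by
  induction k with
  | zero => rw [pow_zero, mul_zero, mul_zero, dg_zero]
  | succ k ih => rw [pow_succ, ih, dg_mul, mul_add, mul_add, mul_one, mul_one]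

theorem dg_congr (hζ : IsPrimitiveRoot ζ 9) {a b c d : ℕ} (h1 : a % 9 = c % 9) (h2 : b % 9 = d % 9) :
    dg hζ a b = dg hζ c d := by
  apply gm_inj
  rw [gm_dg, gm_dg, pow_eq_pow_mod a hζ.pow_eq_one, pow_eq_pow_mod b hζ.pow_eq_one, h1, h2,
    ← pow_eq_pow_mod c hζ.pow_eq_one, ← pow_eq_pow_mod d hζ.pow_eq_one]

theorem det_dg (hζ : IsPrimitiveRoot ζ 9) (a b : ℕ) : (gm (dg hζ a b)).det = ζ ^ (a + b) := by
  rw [gm_dg, det_diagonal, Fin.prod_univ_three, pow_add]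
  simp

theorem gm_map (ρ : F ≃+* F) (A : GU 3 F 8) : gm (mapGU ρ A) = (gm A).map ρ := rfl

theorem map_dg (hζ : IsPrimitiveRoot ζ 9) (j a b : ℕ) :
    mapGU (fr F ^ j) (dg hζ a b) = dg hζ (a * 2 ^ j) (b * 2 ^ j) := by
  apply gm_inj
  rw [gm_map, gm_dg, gm_dg, diagonal_map (map_zero _)]
  congr 1
  ext i
  fin_cases i
  · exact (fr_pow j _).trans (pow_mul _ _ _).symm
  · exact (fr_pow j _).trans (pow_mul _ _ _).symm
  · exact map_one _

include hF in
theorem dg_eq (hζ : IsPrimitiveRoot ζ 9) {a b c d : ℕ}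
    (h : (f₁ (dg hζ a b) : MulAut (PSU 3 F 8)) = f₁ (dg hζ c d)) : ζ ^ d = ζ ^ b ∧ ζ ^ c = ζ ^ a := by
  obtain ⟨e, he⟩ := (f₁_eq_iff hF le_rfl _ _).1 h
  rw [gm_dg, gm_dg] at he
  have h0 := congrFun (congrFun he 0) 0
  have h1 := congrFun (congrFun he 1) 1
  have h2 := congrFun (congrFun he 2) 2
  simp at h0 h1 h2
  rw [← h2, one_mul] at h0 h1
  exact ⟨h1, h0⟩

/-- transvections -/
def tM (μ : F) : Matrix (Fin 3) (Fin 3) F := !![1, 0, 0; 0, 1 + μ, μ; 0, μ, 1 + μ]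

theorem two0 : (2 : F) = 0 := CharTwo.two_eq_zero

theorem tM_mul (μ ν : F) : tM μ * tM ν = tM (μ + ν) := by
  have h2 : (2 : F) = 0 := two0
  ext i j
  fin_cases i <;> fin_cases j <;> simp [tM, Matrix.mul_apply, Fin.sum_univ_three] <;>
    linear_combination μ * ν * h2

theorem tM_zero : tM (0 : F) = 1 := by
  ext i j
  fin_cases i <;> fin_cases j <;> simp [tM]

theorem tM_sq (μ : F) : tM μ * tM μ = 1 := by rw [tM_mul, CharTwo.add_self_eq_zero, tM_zero]

theorem tM_map (σ : F ≃+* F) {μ : F} (h3 : σ μ = μ) : (tM μ).map σ = tM μ := by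
  ext i j
  fin_cases i <;> fin_cases j <;> simp [tM, h3]

/-- transvections -/
def tv (μ : F) (hμ : μ ^ 8 = μ) : GU 3 F 8 :=
  ⟨⟨tM μ, tM μ, tM_sq μ, tM_sq μ⟩, (mem_GU_mat (τ := conj hF) (conj_apply hF) _).2 (by
    have h1 : (tM μ)ᵀ = tM μ := by
      ext i j
      fin_cases i <;> fin_cases j <;> simp [tM]
    have h2 : (tM μ).map (conj hF) = tM μ := tM_map _ hμ
    change (tM μ)ᵀ * (tM μ).map (conj hF) = 1
    rw [h1, h2, tM_sq])⟩

theorem gm_tv (μ : F) (hμ : μ ^ 8 = μ) : gm (tv hF μ hμ) = tM μ := rfl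

theorem tv_eq {μ ν : F} (hμ : μ ^ 8 = μ) (hν : ν ^ 8 = ν)
    (h : (f₁ (tv hF μ hμ) : MulAut (PSU 3 F 8)) = f₁ (tv hF ν hν)) : ν = μ := by
  obtain ⟨e, he⟩ := (f₁_eq_iff hF le_rfl _ _).1 h
  rw [gm_tv, gm_tv] at he
  have h0 := congrFun (congrFun he 0) 0
  have h1 := congrFun (congrFun he 1) 2
  simp [tM] at h0 h1
  rw [h1, ← h0, one_mul]

theorem tv_order {μ : F} (hμ : μ ^ 8 = μ) (h0 : μ ≠ 0) : orderOf (f₁ (tv hF μ hμ) : MulAut (PSU 3 F 8)) = 2 := by
  refine orderOf_eq_prime ?_ fun h => h0 ?_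
  · rw [pow_two, ← map_mul, ← map_one f₁]
    congr 1
    exact gm_inj (tM_sq μ)
  · have h1 : tv hF 0 (by norm_num) = 1 := gm_inj tM_zero
    exact tv_eq hF (μ := 0) (by norm_num) hμ (by rw [h1, map_one, h])

theorem tv_dg (hζ : IsPrimitiveRoot ζ 9) {μ : F} (hμ : μ ^ 8 = μ) : Commute (tv hF μ hμ) (dg hζ 1 0) := by
  apply gm_inj
  rw [gm_mul, gm_mul, gm_tv, gm_dg]
  ext i j
  fin_cases i <;> fin_cases j <;> simp [tM, Matrix.mul_apply, Fin.sum_univ_three]

include hF in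
theorem inn_iff (M : GU 3 F 8) : (f₁ M : MulAut (PSU 3 F 8)) ∈ Inn (PSU 3 F 8) ↔ (gm M).det ^ 3 = 1 := by
  rw [mem_inn_iff hF le_rfl, ← ker_pow_eq_range (a := 3) (b := 3) (card_rootsOfUnity_eq hF), MonoidHom.mem_ker,
    ← det_gm hF]
  generalize Cfsg.Agent.ClassicalGeometry.GUBasic.detHom 3 hF M = w
  constructor
  · intro h
    have := congrArg (fun z : rootsOfUnity (8 + 1) F => ((z : Fˣ) : F)) h
    simpa using this
  · intro h
    apply root_ext
    simpa using h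

theorem det_tv {μ : F} (hμ : μ ^ 8 = μ) : (gm (tv hF μ hμ)).det = 1 := by
  have h2 : (2 : F) = 0 := two0
  rw [gm_tv, det_fin_three]
  simp [tM]
  linear_combination μ * h2

include hF in
theorem exists_dg (hζ : IsPrimitiveRoot ζ 9) (M : GU 3 F 8) :
    ∃ i ∈ Inn (PSU 3 F 8), ∃ k : ℕ, (f₁ M : MulAut (PSU 3 F 8)) = i * f₁ (dg hζ 1 0) ^ k := by
  have h1 : (gm M).det ^ 9 = 1 := det_pow hF (herm_gm M)
  obtain ⟨k, -, hk⟩ := hζ.eq_pow_of_pow_eq_one h1
  refine ⟨f₁ (M * dg hζ (8 * k) 0), ?_, k, ?_⟩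
  · rw [inn_iff hF, gm_mul, det_mul, det_dg, ← hk, ← pow_add, show k + (8 * k + 0) = 9 * k by ring, pow_mul,
      hζ.pow_eq_one, one_pow, one_pow]
  · rw [← map_pow, ← map_mul, dg_pow, mul_assoc, dg_mul, dg_congr hζ (c := 0) (d := 0) (by omega) (by omega), dg_zero,
      mul_one]

include hF in
theorem exists_f₁ {i : MulAut (PSU 3 F 8)} (hi : i ∈ Inn (PSU 3 F 8)) : ∃ M : GU 3 F 8, i = f₁ M := by
  have := inn_le hF hi
  rw [inndiag_eq] at this
  obtain ⟨M, hM⟩ := this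
  exact ⟨M, hM.symm⟩

include hF in
theorem exists_dec (hζ : IsPrimitiveRoot ζ 9) (x : MulAut (PSU 3 F 8)) :
    ∃ (M : GU 3 F 8) (j : ℕ), x = toAut M (fr F ^ j) := by
  obtain ⟨M, ρ, rfl⟩ := ClassicalGeometry.PSUAutMain.exists_toAut hF le_rfl (by norm_num) x
  obtain ⟨j, rfl⟩ := exists_fr hF hζ ρ
  exact ⟨M, j, rfl⟩

include hF in
theorem dvd_of_pow (hζ : IsPrimitiveRoot ζ 9) {M : GU 3 F 8} {j n : ℕ} (h : toAut M (fr F ^ j) ^ n = 1) :
    6 ∣ j * n := by
  have h1 := (CpAutU.Desc.exists_scalar hF le_rfl h).1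
  rwa [← pow_mul, ← orderOf_dvd_iff_pow_eq_one, order_fr hF hζ] at h1

/-- the involutory graph automorphisms -/
def Gr (γ : MulAut (PSU 3 F 8)) : Prop := orderOf γ = 2 ∧ ∃ M : GU 3 F 8, γ = f₁ M * f₂ (fr F ^ 3)

include hF in
theorem Gr.isGraph (hζ : IsPrimitiveRoot ζ 9) {γ : MulAut (PSU 3 F 8)} (h : Gr γ) : IsGraphAutClassPSU γ := by
  obtain ⟨-, M, rfl⟩ := h
  refine ⟨le_rfl, f₁ M, f₂ (fr F ^ 3), fr F ^ 3, ?_, (inndiag_iff _).2 ⟨M, rfl⟩, (isFieldAut_iff _ _).2 rfl, rfl⟩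
  rw [orderOf_pow' _ (by norm_num), order_fr hF hζ]
  decide

include hF in
theorem of_inndiag (hζ : IsPrimitiveRoot ζ 9) {g : MulAut (PSU 3 F 8)} (hg : g ∈ inndiagPSU 3 F 8) :
    ∃ j ∈ Inn (PSU 3 F 8), ∃ k : ℕ, g = j * f₁ (dg hζ 1 0) ^ k := by
  rw [inndiag_eq] at hg
  obtain ⟨M, rfl⟩ := hg
  exact exists_dg hF hζ M

include hF in
theorem cent_φ (hζ : IsPrimitiveRoot ζ 9) :
    216 ≤ Nat.card (Inn (PSU 3 F 8) ⊓ centralizer ({f₂ (fr F ^ 2)} : Set (MulAut (PSU 3 F 8))) : Subgroup _) := by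
  haveI : Fact (Nat.Prime 2) := ⟨Nat.prime_two⟩
  haveI := H91.Pgu.finite_MulAut hF
  letI : Fintype (GaloisField 2 2) := Fintype.ofFinite _
  have hF₀ : Fintype.card (GaloisField 2 2) = 2 ^ 2 := by
    rw [← Nat.card_eq_fintype_card, GaloisField.card 2 2 (by norm_num)]
  have ho : orderOf (fr F ^ 2) = 3 := by rw [orderOf_pow' _ (by norm_num), order_fr hF hζ]; rfl
  have hne : fr F ^ 2 ≠ 1 := fun h => by rw [h, orderOf_one] at ho; omega
  have hoφ : orderOf (f₂ (fr F ^ 2) : MulAut (PSU 3 F 8)) = 3 := by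
    haveI : Fact (Nat.Prime 3) := ⟨Nat.prime_three⟩
    refine orderOf_eq_prime (by rw [← map_pow, ← ho, pow_orderOf_eq_one, map_one]) fun h => hne ?_
    have h1 : toAut (1 : GU 3 F 8) 1 = toAut 1 (fr F ^ 2) := (map_one f₂).trans h.symm
    exact (eq_of_toAut_eq hF le_rfl h1).1
  obtain ⟨-, ⟨e⟩, hs⟩ := S2705.result (p := 2) (f := 3) (q := 8) (by norm_num) (by norm_num) hF le_rfl (by norm_num)
    (f₂ (fr F ^ 2)) ⟨1, f₂ (fr F ^ 2), fr F ^ 2, hne, by rw [ho]; decide, (isFieldAut_iff _ _).2 rfl, by simp⟩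
    Nat.prime_three (by decide) hoφ (GaloisField 2 2) hF₀
  rw [splitClassCount_eq (inn_le hF) (fun h _ k hk => (innNormal _).conj_mem k hk h)] at hs
  have h1 : inndiagPSU 3 F 8 ⊓ centralizer ({f₂ (fr F ^ 2)} : Set (MulAut (PSU 3 F 8))) ≤
      Inn (PSU 3 F 8) ⊓ centralizer ({f₂ (fr F ^ 2)} : Set (MulAut (PSU 3 F 8))) := by
    intro g hg
    refine ⟨?_, hg.2⟩
    obtain ⟨j, hj, k, rfl⟩ := of_inndiag hF hζ hg.1
    have hD3 : (f₁ (dg hζ 1 0) : MulAut (PSU 3 F 8)) ^ 3 ∈ Inn (PSU 3 F 8) := by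
      rw [← map_pow, dg_pow, inn_iff hF, det_dg, ← pow_mul]
      exact hζ.pow_eq_one
    by_cases hk : 3 ∣ k
    · obtain ⟨c, rfl⟩ := hk
      rw [pow_mul]
      exact mul_mem hj (pow_mem hD3 c)
    · exfalso
      obtain ⟨S, hS⟩ : ∃ S, S = Inn (PSU 3 F 8) ⊔ (inndiagPSU 3 F 8 ⊓
        centralizer ({f₂ (fr F ^ 2)} : Set (MulAut (PSU 3 F 8)))) := ⟨_, rfl⟩
      rw [← hS] at hs
      have hI : Inn (PSU 3 F 8) ≤ S := hS ▸ le_sup_left
      have h2 : (f₁ (dg hζ 1 0) : MulAut (PSU 3 F 8)) ^ k ∈ S :=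
        (S.mul_mem_cancel_left (hI hj)).1 (hS ▸ mem_sup_right hg)
      have h3 : (f₁ (dg hζ 1 0) : MulAut (PSU 3 F 8)) ∈ S := by
        obtain ⟨c, hc⟩ : ∃ c, k * k = 3 * c + 1 := by
          refine ⟨k * k / 3, ?_⟩
          have : k % 3 = 1 ∨ k % 3 = 2 := by omega
          have h4 : k * k % 3 = 1 := by rcases this with h | h <;> rw [Nat.mul_mod, h]
          omega
        have h4 := S.pow_mem h2 k
        rw [← pow_mul, hc, pow_succ, pow_mul] at h4
        exact (S.mul_mem_cancel_left (S.pow_mem (hI hD3) c)).1 h4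
      have h5 : inndiagPSU 3 F 8 ≤ S := by
        intro g hg
        obtain ⟨j, hj, k, rfl⟩ := of_inndiag hF hζ hg
        exact mul_mem (hI hj) (S.pow_mem h3 k)
      rw [relIndex_eq_one.2 h5] at hs
      exact absurd hs (by decide)
  refine le_trans ?_ (card_le_of_le h1)
  rw [Nat.card_congr e.toEquiv]
  have h2 := card_pgu_ge (n := 3) (by norm_num) hF₀
  rw [S0277.result hF₀ 3] at h2
  have h3 : 2 ^ (3 * (3 - 1) / 2) * ∏ i ∈ Finset.range 3, (if Even i then 2 ^ (i + 1) + 1 else 2 ^ (i + 1) - 1) = 648 := by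
    decide
  rw [h3] at h2
  change 216 ≤ Nat.card (PGU 3 (GaloisField 2 2) 2)
  omega

include hF in
theorem graph (hζ : IsPrimitiveRoot ζ 9) {γ γ' : MulAut (PSU 3 F 8)} (h : Gr γ) (h' : Gr γ') :
    504 ≤ Nat.card (inndiagPSU 3 F 8 ⊓ centralizer ({γ} : Set (MulAut (PSU 3 F 8))) : Subgroup _) ∧
      IsConjUnder (inndiagPSU 3 F 8) γ γ' := by
  haveI : Fact (Nat.Prime 2) := ⟨Nat.prime_two⟩
  letI : Fintype (GaloisField 2 3) := Fintype.ofFinite _
  have hF₀ : Fintype.card (GaloisField 2 3) = 8 := by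
    rw [← Nat.card_eq_fintype_card, GaloisField.card 2 3 (by norm_num)]
    norm_num
  obtain ⟨⟨e⟩, hc⟩ := S2706.result (p := 2) (f := 3) (q := 8) (by norm_num) (by norm_num) hF le_rfl (by norm_num)
    (m := 1) rfl (GaloisField 2 3) hF₀ γ γ' (h.isGraph hF hζ) h.1 (h'.isGraph hF hζ) h'.1
  refine ⟨?_, hc⟩
  haveI := H91.Pgu.finite_MulAut hF
  have h1 := H245.RankOneOrth.card_dvd (F := GaloisField 2 3)
  rw [ClassicalGeometry.PSL2Basic.card_SL2, hF₀, ← Nat.card_congr e.toEquiv] at h1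
  exact Nat.le_of_dvd Nat.card_pos h1

theorem mu_pow (hζ : IsPrimitiveRoot ζ 9) : (ζ + ζ ^ 8) ^ 8 = ζ + ζ ^ 8 := by
  haveI : Fact (Nat.Prime 2) := ⟨Nat.prime_two⟩
  have h := add_pow_char_pow (p := 2) (n := 3) ζ (ζ ^ 8)
  rw [show 2 ^ 3 = 8 from rfl] at h
  rw [h, ← pow_mul, pow_eq_pow_mod (8 * 8) hζ.pow_eq_one, add_comm]
  norm_num

include hF in
/-- **The facts on `Aut U₃(8)`.** -/
theorem dat (hζ : IsPrimitiveRoot ζ 9) (hT : Nat.card (PSU 3 F 8) = 5515776) :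
    Dat (Inn (PSU 3 F 8)) (f₁ (dg hζ 1 0)) (f₂ (fr F ^ 2)) (f₁ (tv hF 1 (one_pow 8))) (f₁ (tv hF _ (mu_pow hζ)))
      (f₁ (dg hζ 0 3)) Gr := by
  haveI : Fact (Nat.Prime 2) := ⟨Nat.prime_two⟩
  have h2 : (2 : F) = 0 := two0
  have h9 := hζ.pow_eq_one
  have hz : ∀ a b : ℕ, ζ ^ a = ζ ^ b → a % 9 = b % 9 := fun a b h => by
    rw [pow_eq_pow_mod a h9, pow_eq_pow_mod b h9] at h
    exact hζ.pow_inj (Nat.mod_lt _ (by norm_num)) (Nat.mod_lt _ (by norm_num)) h
  have hinj := H91.Pgu.conj_injective hF (by norm_num)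
  have h6 : fr F ^ 6 = 1 := by rw [← order_fr hF hζ, pow_orderOf_eq_one]
  have hφ : ∀ (M : GU 3 F 8), mapGU (fr F ^ 2) M = M → Commute (f₁ M : MulAut (PSU 3 F 8)) (f₂ (fr F ^ 2)) := by
    intro M hM
    have := conj_field (fr F ^ 2) M
    rw [hM, mul_inv_eq_iff_eq_mul] at this
    exact this.symm
  exact
    { nI := innNormal _
      cI := by rw [← hT]; exact (Nat.card_congr (MonoidHom.ofInjective hinj).toEquiv).symm
      cX := by
        rw [S0815.result 2 3 (by norm_num) (by norm_num) hF 3 le_rfl (by norm_num), hT]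
        norm_num
      D3 := by
        rw [← map_pow, dg_pow, inn_iff hF, det_dg, ← pow_mul]
        exact h9
      D9 := by rw [← map_pow, dg_pow, dg_congr hζ (a := 1 * 9) (b := 0 * 9) (c := 0) (d := 0) rfl rfl, dg_zero, map_one]
      D3n := fun h => by
        rw [← map_pow, dg_pow, ← map_one f₁, ← dg_zero hζ] at h
        exact absurd (hz _ _ (dg_eq hF hζ h).2) (by decide)
      φ3 := by rw [← map_pow, ← pow_mul, h6, map_one]
      φI := fun h => by
        obtain ⟨M, hM⟩ := exists_f₁ hF h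
        have h1 : toAut M 1 = toAut (1 : GU 3 F 8) (fr F ^ 2) := hM.symm
        have h3 := orderOf_dvd_of_pow_eq_one (eq_of_toAut_eq hF le_rfl h1).1
        rw [order_fr hF hζ] at h3
        norm_num at h3
      φD := by rw [conj_field, map_dg, ← map_pow, dg_pow]; rfl
      u2 := tv_order hF _ one_ne_zero
      v2 := tv_order hF _ fun h => by
        have h1 : ζ ^ 1 = ζ ^ 8 := by linear_combination h - ζ ^ 8 * h2
        exact absurd (hz _ _ h1) (by decide)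
      uv := fun h => by
        have h1 := tv_eq hF _ _ h
        have h3 : ζ ^ 3 = ζ ^ 0 := by
          have h4 : ζ ^ 2 + ζ + 1 = 0 := by linear_combination ζ * h1 - h9 + ζ * h2
          linear_combination (ζ - 1) * h4
        exact absurd (hz _ _ h3) (by decide)
      cuv := by
        refine Commute.map (gm_inj ?_) f₁
        rw [gm_mul, gm_mul, gm_tv, gm_tv, tM_mul, tM_mul, add_comm]
      uI := by rw [inn_iff hF, det_tv, one_pow]
      vI := by rw [inn_iff hF, det_tv, one_pow]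
      uD := (tv_dg hF hζ _).map f₁
      vD := (tv_dg hF hζ _).map f₁
      uφ := hφ _ (gm_inj (by
        rw [gm_map, gm_tv]
        ext i j
        fin_cases i <;> fin_cases j <;> simp [tM]))
      wI := by
        rw [inn_iff hF, det_dg, ← pow_mul]
        exact h9
      w3 := by rw [← map_pow, dg_pow, dg_congr hζ (a := 0 * 3) (b := 3 * 3) (c := 0) (d := 0) rfl rfl, dg_zero, map_one]
      wD := by
        refine Commute.map ?_ f₁
        change _ * _ = _ * _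
        rw [dg_mul, dg_mul]
      wφ := hφ _ (by rw [map_dg]; exact dg_congr hζ rfl rfl)
      wn := fun h => by
        haveI := H91.Pgu.finite_MulAut hF
        obtain ⟨m, hm⟩ := mem_powers_iff_mem_zpowers.2 h
        simp only at hm
        rw [← pow_mul, ← map_pow, dg_pow] at hm
        have := hz _ _ (dg_eq hF hζ hm).1
        simp at this
      dec3 := fun x hx => by
        obtain ⟨M, j, rfl⟩ := exists_dec hF hζ x
        obtain ⟨b, rfl⟩ : 2 ∣ j := by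
          have := dvd_of_pow hF hζ hx
          omega
        obtain ⟨i, hi, a, ha⟩ := exists_dg hF hζ M
        exact ⟨i, hi, a, b, by rw [toAut_eq, ha, pow_mul, map_pow f₂ (fr F ^ 2) b]⟩
      cls3 := fun i hi b hb ho => by
        obtain ⟨M, rfl⟩ := exists_f₁ hF hi
        have hob : orderOf ((fr F ^ 2) ^ b) = 3 := by
          rw [← pow_mul]
          rcases hb with rfl | rfl <;> rw [orderOf_pow' _ (by norm_num), order_fr hF hζ] <;> rfl
        rw [← map_pow, ← toAut_eq] at ho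
        obtain ⟨g, hg, e⟩ := (exists_conj_field hF le_rfl (fun h => by rw [h, orderOf_one] at hob; omega)
          (by rw [hob]; decide) Nat.prime_three ho).2
        obtain ⟨j, hj, k, rfl⟩ := of_inndiag hF hζ hg
        exact ⟨j, hj, k, by rw [← map_pow f₂, ← toAut_eq, e]⟩
      cφ := cent_φ hF hζ
      inv1 := by
        rintro _ ⟨s, rfl⟩ _ ⟨t, rfl⟩ hs ht
        rw [orderOf_injective _ hinj] at hs ht
        obtain ⟨g, hg⟩ := H91.Pgu.exists_conj_inv hF (by norm_num) hs ht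
        exact ⟨MulAut.conj g, ⟨g, rfl⟩, by rw [← map_inv, ← map_mul, ← map_mul, hg]⟩
      dec2 := fun x hx => by
        obtain ⟨M, j, rfl⟩ := exists_dec hF hζ x
        have h1 := dvd_of_pow hF hζ (n := 2) (by rw [← hx, pow_orderOf_eq_one])
        rcases (show j % 6 = 0 ∨ j % 6 = 3 by omega) with h | h
        · obtain ⟨i, hi, a, ha⟩ := exists_dg hF hζ M
          exact Or.inl ⟨i, hi, a, by rw [toAut_eq, ha, pow_eq_pow_mod j h6, h, pow_zero, map_one, mul_one]⟩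
        · exact Or.inr ⟨hx, M, by rw [toAut_eq, pow_eq_pow_mod j h6, h]⟩
      grI := by
        rintro _ ⟨-, M, rfl⟩
        have e : (f₁ M : MulAut (PSU 3 F 8)) * f₂ (fr F ^ 3) * f₁ (dg hζ 1 0) * (f₁ M * f₂ (fr F ^ 3))⁻¹ *
            f₁ (dg hζ 1 0) = f₁ (M * dg hζ (1 * 2 ^ 3) (0 * 2 ^ 3) * M⁻¹ * dg hζ 1 0) := by
          rw [map_mul, map_mul, map_mul, map_inv, ← map_dg, ← conj_field]
          group
        have h1 : (gm M).det * (gm M⁻¹).det = 1 := by rw [← det_mul, gm_mul_inv, det_one]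
        rw [e, inn_iff hF, gm_mul, gm_mul, gm_mul, det_mul, det_mul, det_mul, det_dg, det_dg]
        have h3 : (gm M).det * ζ ^ (1 * 2 ^ 3 + 0 * 2 ^ 3) * (gm M⁻¹).det * ζ ^ (1 + 0) = 1 := by
          linear_combination ζ ^ 9 * h1 + h9
        rw [h3, one_pow]
      grC := fun γ γ' h h' => by
        obtain ⟨g, hg, e⟩ := (graph hF hζ h h').2
        obtain ⟨j, hj, k, rfl⟩ := of_inndiag hF hζ hg
        exact ⟨j, hj, k, e⟩
      grZ := fun γ h => ⟨_, (graph hF hζ h h).1, fun g hg =>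
        ⟨mem_centralizer_singleton_iff.1 hg.2, of_inndiag hF hζ hg.1⟩⟩ }

end Cfsg.Agent.SP.NTh.U38

namespace Cfsg.Agent.SP.NTh.U38

open Cfsg

/-- **The facts on `Aut U₃(8)`.** -/
theorem exists_dat {F : Type} [Field F] [Fintype F] (hF : Fintype.card F = 8 ^ 2) (hT : Nat.card (PSU 3 F 8) = 5515776) :
    ∃ (D φ u v w : MulAut (PSU 3 F 8)) (G : MulAut (PSU 3 F 8) → Prop), Dat (Inn (PSU 3 F 8)) D φ u v w G := by
  classical
  haveI : CharP F 2 := by
    obtain ⟨p, hp⟩ := CharP.exists F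
    obtain ⟨n, hp', hn⟩ := FiniteField.card F p
    rw [hF] at hn
    have h3 : p ∣ 2 := by
      apply hp'.dvd_of_dvd_pow (n := 6)
      rw [show 2 ^ 6 = 8 ^ 2 by norm_num, hn]
      exact dvd_pow_self p n.ne_zero
    rw [(Nat.prime_dvd_prime_iff_eq hp' Nat.prime_two).1 h3] at hp
    exact hp
  obtain ⟨g, hg⟩ := IsCyclic.exists_ofOrder_eq_natCard (α := Fˣ)
  rw [Nat.card_units, Nat.card_eq_fintype_card, hF] at hg
  have h1 : orderOf (g ^ 7) = 9 := by rw [orderOf_pow' _ (by norm_num), hg]; rfl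
  have hζ : IsPrimitiveRoot ((g ^ 7 : Fˣ) : F) 9 := by
    rw [IsPrimitiveRoot.coe_units_iff, ← h1]
    exact IsPrimitiveRoot.orderOf _
  exact ⟨_, _, _, _, _, _, dat hF hζ hT⟩

end Cfsg.Agent.SP.NTh.U38
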