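import Cfsg.Agent.SP.NTh.Base

/-! # S5755, row `Th`: a 3A-pure group of order 9 centralises no involution (helper26) -/

set_option autoImplicit false
set_option linter.style.haveILetI false

namespace Cfsg.Agent.SP.NTh.U38

open Subgroup Cfsg.Agent.SP Cfsg.Agent.Th.Word Cfsg.Agent.Th.IndexUpper
open Cfsg.Agent.KFacts.Th.Struct
open Cfsg.Agent.CpAutTh.Data Cfsg.Agent.CpAutTh.Local

theorem pow_val_add3 {G : Type*} [Group G] {s : G} (hs : s ^ 3 = 1) (a b : ZMod 3) :
    s ^ (a + b).val = s ^ a.val * s ^ b.val := by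
  rw [← pow_add, ZMod.val_add, ← pow_eq_pow_mod _ hs]

/-- no four subgroups of order 3 with three fixed points each -/
theorem perm_pure {α β : Equiv.Perm (Fin 9)} (hc : Commute α β) (hα : α ^ 3 = 1) (hβ : β ^ 3 = 1)
    (h1 : α.support.card = 6) (h2 : β.support.card = 6) (h3 : (α * β).support.card = 6)
    (h4 : (α ^ 2 * β).support.card = 6) : False := by
  classical
  let ψ : Multiplicative (ZMod 3 × ZMod 3) →* Equiv.Perm (Fin 9) :=
    MonoidHom.mk' (fun u => α ^ u.toAdd.1.val * β ^ u.toAdd.2.val) fun u v => by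
      have e : Commute (β ^ u.toAdd.2.val) (α ^ v.toAdd.1.val) := hc.symm.pow_pow _ _
      rw [toAdd_mul, Prod.fst_add, Prod.snd_add, pow_val_add3 hα, pow_val_add3 hβ, mul_assoc, mul_assoc,
        ← mul_assoc (β ^ u.toAdd.2.val), e.eq, mul_assoc]
  letI : MulAction (Multiplicative (ZMod 3 × ZMod 3)) (Fin 9) := MulAction.compHom _ ψ
  have key := MulAction.sum_card_fixedBy_eq_card_orbits_mul_card_group (Multiplicative (ZMod 3 × ZMod 3)) (Fin 9)
  have hfix : ∀ u, Fintype.card (MulAction.fixedBy (Fin 9) u) = 9 - (ψ u).support.card := by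
    intro u
    have := (ψ u).card_fixedPoints
    rw [Equiv.Perm.sum_cycleType, Fintype.card_fin] at this
    rw [← this]
    exact Fintype.card_congr (Equiv.refl _)
  simp only [hfix] at key
  rw [← Equiv.sum_comp Multiplicative.ofAdd, Fintype.sum_prod_type] at key
  have e : ∑ x : ZMod 3, ∑ y : ZMod 3, (9 - (ψ (Multiplicative.ofAdd (x, y))).support.card) =
      ∑ x : Fin 3, ∑ y : Fin 3, (9 - (α ^ x.val * β ^ y.val).support.card) := rfl
  have a2 : α ^ 2 = α⁻¹ := by rw [eq_inv_iff_mul_eq_one, ← pow_succ, hα]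
  have b2 : β ^ 2 = β⁻¹ := by rw [eq_inv_iff_mul_eq_one, ← pow_succ, hβ]
  have c1 : α ^ 2 * β ^ 2 = (α * β)⁻¹ := by rw [a2, b2, hc.eq, mul_inv_rev]
  have c2 : α * β ^ 2 = (α ^ 2 * β)⁻¹ := by rw [a2, b2, mul_inv_rev, inv_inv, hc.inv_right.eq]
  rw [e] at key
  simp only [Fin.sum_univ_three, Fin.val_zero, Fin.val_one, Fin.val_two, pow_zero, pow_one, one_mul, mul_one, c1, c2,
    h3, h4, Equiv.Perm.support_inv, Equiv.Perm.support_one, Finset.card_empty] at key
  rw [a2, b2, Equiv.Perm.support_inv, Equiv.Perm.support_inv, h1, h2] at key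
  have h5 : Fintype.card (Multiplicative (ZMod 3 × ZMod 3)) = 9 := by simp
  rw [h5] at key
  omega

theorem supp_A {f : sub gTh isC →* alternatingGroup (Fin 9)} (F : Epi gTh f) {y : sub gTh isC}
    (hy : IsConj xA (y : Th)) : ((f y : alternatingGroup (Fin 9)) : Equiv.Perm (Fin 9)).support.card = 6 := by
  have ho : orderOf y = 3 := by rw [← Subgroup.orderOf_coe, isConj_order hy, oA]
  obtain ⟨k, h | h | h⟩ := exists_rep_three ctx F ho
  · exact absurd (hy.trans (isConj_iff.2 ⟨(k : Th), congrArg Subtype.val h⟩)) not_conj_AC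
  · have e := F.word X33 c33
    rw [← h, map_mul, map_mul, map_inv, Subgroup.coe_mul, Subgroup.coe_mul, Subgroup.coe_inv] at e
    rw [← Equiv.Perm.sum_cycleType, ← Equiv.Perm.cycleType_conj (τ := ((f k : alternatingGroup (Fin 9)) :
      Equiv.Perm (Fin 9))), e, t33]
    rfl
  · exact absurd (hy.trans (isConj_iff.2 ⟨(k : Th), congrArg Subtype.val h⟩)) not_conj_AB

/-- **A 3A-pure group of order 9 centralises no involution.** -/
theorem not_pure {a b s : Th} (hs : orderOf s = 2) (ha : Commute s a) (hb : Commute s b) (hab : Commute a b)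
    (h1 : IsConj xA a) (h2 : IsConj xA b) (h3 : IsConj xA (a * b)) (h4 : IsConj xA (a ^ 2 * b)) : False := by
  obtain ⟨f, F⟩ := exists_epi ctx
  obtain ⟨g, hg⟩ := Cfsg.Agent.H495.SprThRep.hone s hs
  have hm : ∀ x : Th, Commute s x → g * x * g⁻¹ ∈ sub gTh isC := by
    intro x hx
    rw [ctx.mem_C, ← hg]
    exact (hx.conj g).symm.eq
  have hcj : ∀ x : Th, IsConj xA x → IsConj xA (g * x * g⁻¹) := fun x hx => hx.trans (isConj_iff.2 ⟨g, rfl⟩)
  have h3' : ∀ x : Th, IsConj xA x → (g * x * g⁻¹) ^ 3 = 1 := fun x hx => by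
    rw [← oA, ← isConj_order (hcj x hx), pow_orderOf_eq_one]
  obtain ⟨a', ha'⟩ : ∃ a' : sub gTh isC, a' = ⟨_, hm a ha⟩ := ⟨_, rfl⟩
  obtain ⟨b', hb'⟩ : ∃ b' : sub gTh isC, b' = ⟨_, hm b hb⟩ := ⟨_, rfl⟩
  have ea : (a' : Th) = g * a * g⁻¹ := by rw [ha']
  have eb : (b' : Th) = g * b * g⁻¹ := by rw [hb']
  have hc : Commute a' b' := Subtype.ext (by
    rw [Subgroup.coe_mul, Subgroup.coe_mul, ea, eb]; exact (hab.conj g).eq)
  refine perm_pure (α := ((f a' : alternatingGroup (Fin 9)) : Equiv.Perm (Fin 9)))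
    (β := ((f b' : alternatingGroup (Fin 9)) : Equiv.Perm (Fin 9))) ((hc.map f).map (Subgroup.subtype _)) ?_ ?_
    (supp_A F (ea ▸ hcj a h1)) (supp_A F (eb ▸ hcj b h2)) ?_ ?_
  · have : a' ^ 3 = 1 := Subtype.ext (by rw [Subgroup.coe_pow, ea]; exact h3' a h1)
    rw [← Subgroup.coe_pow, ← map_pow, this, map_one]; rfl
  · have : b' ^ 3 = 1 := Subtype.ext (by rw [Subgroup.coe_pow, eb]; exact h3' b h2)
    rw [← Subgroup.coe_pow, ← map_pow, this, map_one]; rfl
  · rw [← Subgroup.coe_mul, ← map_mul]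
    refine supp_A F ?_
    have := hcj _ h3
    rw [Subgroup.coe_mul, ea, eb]
    convert this using 1
    group
  · rw [← Subgroup.coe_pow, ← Subgroup.coe_mul, ← map_pow, ← map_mul]
    refine supp_A F ?_
    have := hcj _ h4
    rw [Subgroup.coe_mul, Subgroup.coe_pow, ea, eb]
    convert this using 1
    rw [conj_pow]
    group

end Cfsg.Agent.SP.NTh.U38
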