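import Cfsg.Agent.SP.NTh.U38.Mat
import Cfsg.Agent.SP.NTh.U38.Pure
import Cfsg.Agent.OrdDiv.Table

/-! # S5755, row `Th`: the socle `U₃(8)` (helper26) -/

set_option autoImplicit false
set_option linter.style.haveILetI false
set_option maxRecDepth 100000

namespace Cfsg.Agent.SP.NTh.U38

open Subgroup Cfsg Cfsg.Agent.SP Cfsg.Agent.SP.NegS Cfsg.Agent.OrdDiv

theorem arith {a b c n : ℕ} (ha : a ≤ 102144) (hs : a + b + c ≤ 153216) (hn : n ≤ 4902912)
    (h : 6 * 90745943887872000 ≤ 3 * (a ^ 2 * 12737088 + b ^ 2 * 472392 + c ^ 2 * 174960) + n ^ 2 * 5832) : False := by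
  have h1 : a ^ 2 ≤ 102144 * a := by rw [pow_two]; exact Nat.mul_le_mul_right _ ha
  have h2 : n ^ 2 ≤ 4902912 ^ 2 := Nat.pow_le_pow_left hn 2
  obtain ⟨m, hm⟩ : ∃ m, a + m = 153216 := ⟨153216 - a, by omega⟩
  have h3 : (b + c) ^ 2 ≤ m ^ 2 := Nat.pow_le_pow_left (by omega) 2
  have h4 : b ^ 2 + c ^ 2 ≤ (b + c) ^ 2 := by rw [add_sq]; omega
  have h5 : m ^ 2 + 2 * 153216 * a = 153216 ^ 2 + a ^ 2 := by
    have : m ^ 2 + 2 * (a + m) * a = (a + m) ^ 2 + a ^ 2 := by ring
    rwa [hm] at this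
  generalize a ^ 2 = a2 at *
  generalize b ^ 2 = b2 at *
  generalize c ^ 2 = c2 at *
  generalize n ^ 2 = n2 at *
  generalize m ^ 2 = m2 at *
  generalize (b + c) ^ 2 = s2 at *
  omega

section main

variable {X : Type*} [Group X] {I : Subgroup X} {D φ u v w : X} {Gr : X → Prop} {A B L : Subgroup Th}

theorem ncard_le [Finite X] {ι : A →* X} (hι : Function.Injective ι) {S : Set Th} {S' : Set X}
    (hS : ∀ x ∈ S, ∃ hx : x ∈ A, ι ⟨x, hx⟩ ∈ S') : S.ncard ≤ S'.ncard := by
  rw [← Nat.card_coe_set_eq, ← Nat.card_coe_set_eq]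
  choose h1 h2 using hS
  refine Nat.card_le_card_of_injective (fun x : S => (⟨ι ⟨x, h1 x x.2⟩, h2 x x.2⟩ : S')) fun x y hxy => ?_
  exact Subtype.ext (congrArg (fun z : A => (z : Th)) (hι (congrArg Subtype.val hxy)))

theorem main (h : Dat I D φ u v w Gr) (hT : Thr) (hp : IsPair A B) (hLB : L ≤ B) (hL : Nat.card L = 5515776)
    (ι : A →* X) (hι : Function.Injective ι) (hI : ∀ x : A, ι x ∈ I → (x : Th) ∈ L) (hs : I ≤ ι.range) : False := by
  haveI := h.fin
  haveI := finTh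
  have ho : ∀ x : A, orderOf (ι x) = orderOf (x : Th) := fun x => by
    rw [orderOf_injective ι hι, Subgroup.orderOf_coe]
  have hc : ∀ x y : A, Commute (ι x) (ι y) → Commute (x : Th) (y : Th) := fun x y hxy => by
    have : x * y = y * x := hι (by rw [map_mul, map_mul, hxy.eq])
    exact congrArg Subtype.val this
  obtain ⟨u', hu⟩ := hs h.uI
  obtain ⟨v', hv⟩ := hs h.vI
  obtain ⟨w', hw⟩ := hs h.D3
  have hu2 : orderOf (u' : Th) = 2 := by rw [← ho, hu, h.u2]
  have huw : Commute (u' : Th) w' := hc _ _ (by rw [hu, hw]; exact h.uD.pow_right 3)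
  have four : Four (w' : Th) := ⟨u', v', hu2, by rw [← ho, hv, h.v2],
    fun e => h.uv (by rw [← hu, ← hv, Subtype.ext e]), (hc _ _ (by rw [hu, hv]; exact h.cuv)).eq, huw.eq,
    (hc _ _ (by rw [hv, hw]; exact h.vD.pow_right 3)).eq⟩
  have hA : Hyp I ι.range D φ := ⟨hs, by
    rintro a b ha ⟨y, hy⟩
    have h1 := cube_isB (x := y) (s := u') (by rw [← ho, hy, h.order9 ha]) hu2
      (hc _ _ (by rw [hu, hy]; exact (h.uD.pow_right a).mul_right (h.uφ.pow_right b))).eq
    have h2 : y ^ 3 = w' ^ a := hι (by rw [map_pow, map_pow, hy, hw, h.cube])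
    have h3 : (y : Th) ^ 3 = (w' : Th) ^ a := congrArg Subtype.val h2
    rw [h3] at h1
    exact not_four_B ((four.pow a).of_isConj h1.symm)⟩
  -- the index
  have hidx : B.relIndex A ∣ 18 := by
    refine (relIndex_dvd_of_le_left A hLB).trans ?_
    have h1 := card_dvd_of_injective ι hι
    rw [h.cX, ← card_mul_relIndex (hLB.trans hp.le), hL, mul_comm 18] at h1
    exact Nat.dvd_of_mul_dvd_mul_left (by norm_num) h1
  obtain ⟨r, hr, hd⟩ := hp.exists_prime
  have hr23 : r = 2 ∨ r = 3 := by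
    have h1 : r ∣ 2 * 3 ^ 2 := hd.trans hidx
    rcases (Nat.Prime.dvd_mul hr).1 h1 with e | e
    · exact Or.inl ((Nat.prime_dvd_prime_iff_eq hr Nat.prime_two).1 e)
    · exact Or.inr ((Nat.prime_dvd_prime_iff_eq hr Nat.prime_three).1 (hr.dvd_of_dvd_pow e))
  rcases hr23 with rfl | rfl
  · have h1 := hT.two hp hd
    have h2 : nOrd A 2 ≤ _ := (ncard_le hι (S' := {x | x ∈ ι.range ∧ orderOf x = 2})
      fun x hx => ⟨hx.1, ⟨_, rfl⟩, by rw [ho]; exact hx.2⟩).trans (h.count2 hA)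
    omega
  · obtain ⟨K, hK⟩ : ∃ K : ℕ → Set X, K = fun c => cls I ((D ^ 3) ^ c * φ) ∪ cls I ((D ^ 3) ^ c * φ)⁻¹ := ⟨_, rfl⟩
    have hKc : ∀ c, (K c).ncard ≤ 51072 := fun c => by
      rw [hK]
      have := h.card_cls c
      exact (Set.ncard_union_le _ _).trans (by omega)
    have hout : ∀ x : A, (x : Th) ∉ B → ι x ∉ I := fun x hx hm => hx (hLB (hI x hm))
    have hmem : ∀ x : A, (x : Th) ∉ B → orderOf (x : Th) = 3 → ∃ c < 3, ι x ∈ K c := fun x hx h3 => by
      rw [hK]
      exact h.mem_cls hA ⟨x, rfl⟩ (hout x hx) (by rw [ho, h3])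
    refine arith ?_ ?_ ?_ (hT.out3 hp hd)
    · rcases Set.eq_empty_or_nonempty {x : Th | (x ∈ A ∧ x ∉ B) ∧ IsConj xA x} with e | ⟨x, hx⟩
      · unfold oCls
        rw [e, Set.ncard_empty]
        omega
      obtain ⟨p, hp'⟩ := h.φ_mem hA (x := ι ⟨x, hx.1.1⟩) ⟨_, rfl⟩ (hout _ hx.1.2) (by
        rw [← orderOf_dvd_iff_pow_eq_one, ho, isConj_order hx.2, oA]; norm_num)
      obtain ⟨c0, hc0, hn⟩ : ∃ c0 < 3, ¬ IsConj xA ((w' : Th) ^ c0 * p) := by
        by_contra hcon
        push Not at hcon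
        refine not_pure hu2 huw (hc _ _ (by rw [hu, hp']; exact h.uφ)) (hc _ _ (by rw [hw, hp']; exact h.Dφ))
          (isA_iff.2 ⟨by rw [← ho, hw, h.oD3], four⟩) ?_ ?_ (hcon 2 (by norm_num))
        · simpa using hcon 0 (by norm_num)
        · simpa using hcon 1 (by norm_num)
      refine (ncard_le hι (S' := K ((c0 + 1) % 3) ∪ K ((c0 + 2) % 3)) fun y hy => ⟨hy.1.1, ?_⟩).trans
        ((Set.ncard_union_le _ _).trans (by have := hKc ((c0 + 1) % 3); have := hKc ((c0 + 2) % 3); omega))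
      obtain ⟨c, hc3, hc⟩ := hmem ⟨y, hy.1.1⟩ hy.1.2 ((isConj_order hy.2).trans oA)
      have hne : c ≠ c0 := by
        rintro rfl
        apply hn
        rw [hK] at hc
        have e : (D ^ 3) ^ c * φ = ι (w' ^ c * p) := by rw [map_mul, map_pow, hw, hp']
        rcases hc with ⟨i, hi, hc⟩ | ⟨i, hi, hc⟩
        · obtain ⟨l, rfl⟩ := hs hi
          rw [e, ← map_inv, ← map_mul, ← map_mul] at hc
          have e2 : (l : Th) * ((w' : Th) ^ c * p) * (l : Th)⁻¹ = y := congrArg Subtype.val (hι hc)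
          exact hy.2.trans (isConj_iff.2 ⟨_, e2⟩).symm
        · obtain ⟨l, rfl⟩ := hs hi
          rw [e, ← map_inv, ← map_inv, ← map_mul, ← map_mul] at hc
          have e2 : (l : Th) * ((w' : Th) ^ c * p)⁻¹ * (l : Th)⁻¹ = y := congrArg Subtype.val (hι hc)
          have := isA_inv (hy.2.trans (isConj_iff.2 ⟨_, e2⟩).symm)
          rwa [inv_inv] at this
      rcases (show c = (c0 + 1) % 3 ∨ c = (c0 + 2) % 3 by omega) with e | e
      · exact Or.inl (e ▸ hc)
      · exact Or.inr (e ▸ hc)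
    · unfold oCls
      rw [← Set.ncard_union_eq, ← Set.ncard_union_eq]
      · refine (ncard_le hι (S' := K 0 ∪ K 1 ∪ K 2) fun y hy => ?_).trans
          ((Set.ncard_union_le _ _).trans ?_)
        · have hy' : (y ∈ A ∧ y ∉ B) ∧ orderOf y = 3 := by
            rcases hy with (hy | hy) | hy
            · exact ⟨hy.1, (isConj_order hy.2).trans oA⟩
            · exact ⟨hy.1, (isConj_order hy.2).trans oB⟩
            · exact ⟨hy.1, (isConj_order hy.2).trans oC⟩
          obtain ⟨c, hc3, hc⟩ := hmem ⟨y, hy'.1.1⟩ hy'.1.2 hy'.2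
          refine ⟨hy'.1.1, ?_⟩
          interval_cases c
          · exact Or.inl (Or.inl hc)
          · exact Or.inl (Or.inr hc)
          · exact Or.inr hc
        · have := Set.ncard_union_le (K 0) (K 1)
          have := hKc 0
          have := hKc 1
          have := hKc 2
          omega
      · rw [Set.disjoint_left]
        rintro y (hy | hy) hy'
        · exact not_conj_AC (hy.2.trans hy'.2.symm)
        · exact not_conj_BC (hy.2.trans hy'.2.symm)
      · rw [Set.disjoint_left]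
        rintro y hy hy'
        exact not_conj_AB (hy.2.trans hy'.2.symm)
    · unfold oOrd
      rw [← Set.ncard_union_eq]
      · refine (ncard_le hι fun y hy => ?_).trans (h.count9 hA)
        rcases hy with hy | hy
        · exact ⟨hy.1.1, ⟨_, rfl⟩, hout _ hy.1.2, Or.inl (by rw [ho]; exact hy.2)⟩
        · exact ⟨hy.1.1, ⟨_, rfl⟩, hout _ hy.1.2, Or.inr (by rw [ho]; exact hy.2)⟩
      · rw [Set.disjoint_left]
        rintro y hy hy'
        have := hy.2.symm.trans hy'.2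
        omega

end main

theorem cand_u38 : ∀ g ∈ cands [(2, 9), (3, 4), (7, 1), (19, 1)] 5515776, ordN g = 5515776 → g = .psu 3 8 := by
  decide +kernel

/-- **The row `U₃(8)`.** -/
theorem rowU38 : Row 5515776 := by
  intro hC hT A B L hA hL
  haveI := finTh
  haveI := hA.simple
  obtain ⟨g, hg, hR, ho⟩ := exists_good table (hC L) hA.nonab (l := [(2, 9), (3, 4), (7, 1), (19, 1)])
    (N := 5515776) (by decide +kernel) (by rw [hL])
  rw [cand_u38 g hg (ho.symm.trans hL)] at hR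
  obtain ⟨F, _, _, hF, ⟨e⟩⟩ := hR
  obtain ⟨D, φ, u, v, w, G, h⟩ := exists_dat hF (by rw [← Nat.card_congr e.toEquiv, hL])
  let ι : A →* MulAut (PSU 3 F 8) :=
    (MulAut.congr e).toMonoidHom.comp ((normalizerMonoidHom L).comp (inclusion hA.norm))
  have hap : ∀ (x : A) (y : L), ((e.symm (ι x (e y)) : L) : Th) = x * y * (x : Th)⁻¹ := by
    intro x y
    change ((e.symm (e (normalizerMonoidHom L (inclusion hA.norm x) (e.symm (e y)))) : L) : Th) = _
    rw [e.symm_apply_apply, e.symm_apply_apply]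
    rfl
  have hι : Function.Injective ι := by
    rw [injective_iff_map_eq_one]
    intro x hx
    refine Subtype.ext (hA.cent x x.2 fun y hy => ?_)
    have := hap x ⟨y, hy⟩
    rw [hx, MulAut.one_apply, e.symm_apply_apply, eq_mul_inv_iff_mul_eq] at this
    exact this.symm
  have hl : ∀ l : L, ι ⟨l, hA.pair.pair.le (hA.le l.2)⟩ = MulAut.conj (e l) := by
    intro l
    ext t
    obtain ⟨y, rfl⟩ := e.surjective t
    apply e.symm.injective
    apply Subtype.ext
    rw [hap, MulAut.conj_apply, ← map_inv, ← map_mul, ← map_mul, e.symm_apply_apply]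
    rfl
  refine main h hT hA.pair.pair hA.le hL ι hι ?_ ?_
  · rintro x ⟨t, ht⟩
    obtain ⟨l, rfl⟩ := e.surjective t
    rw [← hι ((hl l).trans ht)]
    exact l.2
  · rintro _ ⟨t, rfl⟩
    obtain ⟨l, rfl⟩ := e.surjective t
    exact ⟨_, hl l⟩

end Cfsg.Agent.SP.NTh.U38

namespace Cfsg.Agent.SP.NTh

/-- **The row `U₃(8)`.** -/
theorem rowU38 : Row 5515776 := U38.rowU38

end Cfsg.Agent.SP.NTh
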